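import Cfsg.Agent.Lib.Classical.SL2.MaxList

/-!
The intersection with `L` of a maximal subgroup of `PGL₂(F)` not containing `L` is usually maximal
in `L`.
-/

set_option autoImplicit false
set_option linter.unusedSectionVars false
set_option linter.unusedSimpArgs false
set_option linter.style.haveILetI false

open scoped MatrixGroups Quaternion
open Matrix OnePoint MulAction

namespace Cfsg.Agent.Lib.Classical.SL2.MaxInf

open Cfsg.Agent.Lib.Classical.SL2.Moebius Cfsg.Agent.Lib.Classical.SL2.Rational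
open Cfsg.Agent.Lib.Classical.SL2.Klein Cfsg.Agent.Lib.Classical.SL2.SubfieldCase
open Cfsg.Agent.Lib.Classical.SL2.Dickson Cfsg.Agent.Lib.Classical.SL2.Precise
open Cfsg.Agent.Lib.Classical.SL2.Tori Cfsg.Agent.Lib.Classical.SL2.SubLat
open Cfsg.Agent.Lib.Classical.SL2.Coatom Cfsg.Agent.Lib.Classical.SL2.SubMax
open Cfsg.Agent.Lib.Classical.SL2.EvenList Cfsg.Agent.Lib.Classical.SL2.Quat
open Cfsg.Agent.Lib.Classical.SL2.V4Abs Cfsg.Agent.Lib.Classical.SL2.QuatStd
open Cfsg.Agent.Lib.Classical.SL2.Klein4 Cfsg.Agent.Lib.Classical.SL2.A4S4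
open Cfsg.Agent.Lib.Classical.SL2.V4Count Cfsg.Agent.Lib.Classical.SL2.Icosa
open Cfsg.Agent.Lib.Classical.SL2.A5Sub Cfsg.Agent.Lib.Classical.SL2.MaxAbs
open Cfsg.Agent.Lib.Classical.SL2.MaxList
open Cfsg.Agent.Lib.Classical

local notation "PGL2" => ProjGenLinGroup (Fin 2)
local notation "PSL2" => ProjectiveSpecialLinearGroup (Fin 2)

/-- A coatom of a subgroup from the maximality statement. -/
lemma coatom_subgroupOf {G : Type*} [Group G] {L W : Subgroup G} (h : W ≤ L) (hne : W ≠ L)
    (hmax : ∀ U : Subgroup G, W ≤ U → U ≤ L → U = W ∨ U = L) : IsCoatom (W.subgroupOf L) := by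
  constructor
  · intro h1
    apply hne
    have h2 : L ≤ W := (Subgroup.subgroupOf_eq_top).1 h1
    exact le_antisymm h h2
  · intro V hV
    have h1 : W ≤ V.map L.subtype := by
      intro x hx
      refine ⟨⟨x, h hx⟩, ?_, rfl⟩
      exact hV.le hx
    have h2 : V.map L.subtype ≤ L := by
      rintro _ ⟨x, -, rfl⟩
      exact x.2
    rcases hmax _ h1 h2 with h3 | h3
    · exfalso
      apply hV.not_ge
      intro x hx
      have h4 : (x : G) ∈ V.map L.subtype := ⟨x, hx, rfl⟩
      rw [h3] at h4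
      exact h4
    · rw [eq_top_iff]
      intro x _
      have h4 : (x : G) ∈ V.map L.subtype := by
        rw [h3]
        exact x.2
      obtain ⟨y, hy, hxy⟩ := h4
      have : y = x := Subtype.ext hxy
      rwa [← this]

section Main

variable {F : Type*} [Field F] [Fintype F] [DecidableEq F]

lemma hmax_conj {W : Subgroup (PGL2 F)} (C : PGL2 F)
    (hmax : ∀ U : Subgroup (PGL2 F), W ≤ U → U ≤ Lp F → U = W ∨ U = Lp F) :
    ∀ U : Subgroup (PGL2 F), W.map (MulAut.conj C).toMonoidHom ≤ U → U ≤ Lp F →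
      U = W.map (MulAut.conj C).toMonoidHom ∨ U = Lp F := by
  intro U h1 h2
  have h3 : W ≤ U.map (MulAut.conj C⁻¹).toMonoidHom := by
    intro x hx
    refine ⟨C * x * C⁻¹, h1 ⟨x, hx, rfl⟩, ?_⟩
    show C⁻¹ * (C * x * C⁻¹) * C⁻¹⁻¹ = x
    group
  have h4 : U.map (MulAut.conj C⁻¹).toMonoidHom ≤ Lp F := (map_conj_le_Lp_iff _ _).2 h2
  rcases hmax _ h3 h4 with h5 | h5
  · left
    rw [← h5, map_conj_inv_map]
  · right
    rw [← map_conj_inv_map (U := U) C, h5, map_conj_Lp]

/-- `A₀` is maximal in `L` when `F` is a prime field with `p ≡ ±3 mod 8`, `p ≢ ±1 mod 10`. -/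
theorem A₀_hmax (p : ℕ) [hpp : Fact p.Prime] [CharP F p] (hF : Fintype.card F = p) (h5 : 5 ≤ p)
    (h8 : p % 8 = 3 ∨ p % 8 = 5) (h10 : p % 10 ≠ 1 ∧ p % 10 ≠ 9) (s : AB F) :
    ∀ U : Subgroup (PGL2 F), A₀ s ≤ U → U ≤ Lp F → U = A₀ s ∨ U = Lp F := by
  have hodd : Odd (Fintype.card F) := by
    rw [hF, Nat.odd_iff]
    omega
  have hP := card_psl (F := F)
  rw [gcd_odd hodd, hF] at hP
  intro U hU hUL
  have hdvd := Subgroup.card_dvd_of_le hUL
  rw [card_Lp] at hdvd
  rcases cases_of_contains_A₀ p s U hU with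
    (⟨⟨e₁⟩⟩ | ⟨⟨e₁⟩⟩ | ⟨⟨e₁⟩⟩) | ⟨C, F₀, -, h⟩
  · left
    symm
    apply Subgroup.eq_of_le_of_card_ge hU
    rw [Nat.card_congr e₁.toEquiv, card_A4, card_A₀]
  · exfalso
    rw [Nat.card_congr e₁.toEquiv, card_S4] at hdvd
    have h1 := num_eight_of_sq (num_sixteen (by rw [Nat.odd_iff]; omega) hdvd hP)
    omega
  · right
    rw [Nat.card_congr e₁.toEquiv, card_A5] at hdvd
    have h5' : 5 ∣ p * ((p - 1) * (p + 1)) := by
      rw [← hP]
      exact Dvd.dvd.mul_right (Dvd.dvd.trans (by norm_num) hdvd) _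
    have hp5 : p = 5 := by
      have h6 : Nat.Prime 5 := by norm_num
      rcases (Nat.Prime.dvd_mul h6).1 h5' with h7 | h7
      · exact ((Nat.prime_dvd_prime_iff_eq h6 hpp.out).1 h7).symm
      · exfalso
        rcases (Nat.Prime.dvd_mul h6).1 h7 with h9 | h9 <;> omega
    subst hp5
    apply Subgroup.eq_of_le_of_card_ge hUL
    rw [Nat.card_congr e₁.toEquiv, card_A5, card_Lp]
    have h9 : 5 * ((5 - 1) * (5 + 1)) = 120 := by norm_num
    rw [h9] at hP
    omega
  · right
    exact eq_Lp_of_prime_card (by rw [hF]; exact hpp.out) hUL h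

/-- The Borel subgroup of `L` is maximal. -/
theorem Bp_hmax (hodd : Odd (Fintype.card F)) (h5 : 5 ≤ Fintype.card F) (ω : OnePoint F) :
    ∀ U : Subgroup (PGL2 F), Bp ω ⊓ Lp F ≤ U → U ≤ Lp F → U = Bp ω ⊓ Lp F ∨ U = Lp F := by
  intro U hWU hUL
  obtain ⟨p, hp⟩ := CharP.exists F
  haveI hpp : Fact p.Prime := ⟨CharP.char_is_prime F p⟩
  have hp2 : p ≠ 2 := char_ne_two_of_odd hodd
  let E := AlgebraicClosure F
  haveI : CharP E p := charP_of_injective_algebraMap (algebraMap F E).injective p
  classical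
  have hg2 := gcd_odd hodd
  have hB := card_Bp_inf_Lp ω
  rw [hg2] at hB
  have hle := Subgroup.card_le_of_le hWU
  have hdv := Subgroup.card_dvd_of_le hWU
  obtain ⟨u, hu⟩ : ∃ u, Fintype.card F = u + 5 := ⟨Fintype.card F - 5, by omega⟩
  rw [hu] at hB
  simp only [show u + 5 - 1 = u + 4 by omega] at hB
  rcases precise_pgl (E := E) (p := p) U with ⟨ω', h⟩ | ⟨a, b, hab, hpair, h⟩ | ⟨h, hA⟩ | ⟨hp3, ⟨e⟩⟩ |
    ⟨C, F₀, h3', hU⟩
  · left
    symm
    apply Subgroup.eq_of_le_of_card_ge hWU
    have hle' : U ≤ Bp ω' ⊓ Lp F := le_inf (fun x hx => ιp_injective E (by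
      have := h x hx
      rwa [toE_smul_ιp] at this)) hUL
    have h1 := Subgroup.card_le_of_le hle'
    have h2 := card_Bp_inf_Lp ω'
    rw [hg2, hu] at h2
    simp only [show u + 5 - 1 = u + 4 by omega] at h2
    omega
  · exfalso
    have hle' : U ≤ Dp a b ⊓ Lp F := le_inf (fun x hx => h x hx) hUL
    have h1 := Subgroup.card_le_of_le hle'
    have hcD := card_Dp_inf_Lp hpair
    rw [hg2] at hcD
    have hT : Nat.card (Tp (F := F) a b) ≤ Fintype.card F + 1 := by
      rcases hpair with h2 | h2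
      · rw [card_Tp_split h2]
        omega
      · rw [card_Tp_nonsplit h2]
    have h2 : Nat.card U ≤ u + 6 := by omega
    nlinarith
  · exfalso
    obtain ⟨n, -, hn⟩ := FiniteField.card F p
    have hpq : p ∣ Fintype.card F := by
      rw [hn]
      exact dvd_pow_self _ n.ne_zero
    have hpU : p ∣ Nat.card U := by
      have h1 : p ∣ Nat.card (Bp ω ⊓ Lp F : Subgroup (PGL2 F)) * 2 := by
        rw [hB, ← hu]
        exact Dvd.dvd.mul_right hpq _
      have h2 := (hpp.out.dvd_mul.1 h1).resolve_right (fun hd =>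
        hp2 ((Nat.prime_dvd_prime_iff_eq hpp.out Nat.prime_two).1 hd))
      exact h2.trans hdv
    obtain ⟨h6, h7⟩ := not_dvd_pred_succ hpp.out.one_lt hpq (by omega)
    exact no_elt_of_hnu (E := E) h hpp.out hpU h6 h7
  · exfalso
    subst hp3
    obtain ⟨n, -, hn⟩ := FiniteField.card F 3
    have h3q : 3 ∣ Fintype.card F := by
      rw [hn]
      exact dvd_pow_self _ n.ne_zero
    have hcU : Nat.card U = 60 := by
      rw [Nat.card_congr e.toEquiv, card_A5]
    rw [hcU] at hle hdv
    have hu2 : u ≤ 6 := by nlinarith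
    rw [hu] at h3q
    have hu4 : u = 4 := by
      have hodd' := hodd
      rw [hu, Nat.odd_iff] at hodd'
      omega
    subst hu4
    have h36 : Nat.card (Bp ω ⊓ Lp F : Subgroup (PGL2 F)) = 36 := by
      have h72 : (4 + 5) * (4 + 4) = 72 := by norm_num
      omega
    rw [h36] at hdv
    norm_num at hdv
  · rw [← or_comm]
    obtain ⟨m, hm, hc⟩ := exists_card_pow F₀
    by_cases hm1 : m = 1
    · left
      rw [hm1, pow_one] at hc
      exact eq_Lp_of_top hUL (eq_top_of_card hc) hU
    · exfalso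
      have hm2 : 2 ≤ m := by omega
      have hUφ : U ≤ ((φ₀ F₀).range).map (MulAut.conj C).toMonoidHom := by
        rcases hU with h | h
        · rw [h]
        · rw [h]
          exact Subgroup.map_mono (φ₁_le_φ₀ F₀)
      have h1 := Subgroup.card_le_of_le hUφ
      rw [card_map_conj, card_φ₀] at h1
      obtain ⟨v, hv⟩ : ∃ v, Nat.card F₀ = v + 3 := ⟨Nat.card F₀ - 3, by omega⟩
      rw [hv] at h1 hc
      simp only [show v + 3 - 1 = v + 2 by omega] at h1
      have h2 : (v + 3) ^ 2 ≤ u + 5 := by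
        rw [← hu, ← hc]
        exact Nat.pow_le_pow_right (by omega) hm2
      have h3 : (v + 3) ^ 2 * ((v + 3) ^ 2 - 1) ≤ (u + 5) * (u + 4) := by
        apply Nat.mul_le_mul h2
        omega
      have h4 : (v + 3) ^ 2 - 1 = (v + 2) * (v + 4) := by
        have : (v + 3) ^ 2 = (v + 2) * (v + 4) + 1 := by ring
        omega
      rw [h4] at h3
      have h6 : (v + 3) ^ 2 * ((v + 2) * (v + 4)) = (v + 3) * ((v + 3) * ((v + 2) * (v + 3 + 1))) := by ring
      rw [h6] at h3
      have h8 : (v + 3) * ((v + 3) * ((v + 2) * (v + 3 + 1))) ≤ 2 * ((v + 3) * ((v + 2) * (v + 3 + 1))) := by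
        omega
      have hA : 0 < (v + 3) * ((v + 2) * (v + 3 + 1)) := by positivity
      have h9 := Nat.le_of_mul_le_mul_right h8 hA
      omega

/-- The maximality in `L` of the intersection with `L` of a maximal subgroup of `PGL₂(F)`. -/
theorem inf_hmax (hodd : Odd (Fintype.card F)) (h5 : 5 ≤ Fintype.card F) (h7 : Fintype.card F ≠ 7)
    (h9 : Fintype.card F ≠ 9) (h11 : Fintype.card F ≠ 11)
    (h40 : (Fintype.card F).Prime → Fintype.card F % 40 ∉ ({11, 19, 21, 29} : Finset ℕ))
    (M : Subgroup (PGL2 F)) (hM : IsCoatom M) (hML : ¬ Lp F ≤ M) :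
    ∀ U : Subgroup (PGL2 F), M ⊓ Lp F ≤ U → U ≤ Lp F → U = M ⊓ Lp F ∨ U = Lp F := by
  obtain ⟨p, hp⟩ := CharP.exists F
  haveI hpp : Fact p.Prime := ⟨CharP.char_is_prime F p⟩
  have hp2 : p ≠ 2 := char_ne_two_of_odd hodd
  let E := AlgebraicClosure F
  haveI : CharP E p := charP_of_injective_algebraMap (algebraMap F E).injective p
  classical
  have hq1 := one_lt_card (F := F)
  have hPGL := card_pgl (F := F)
  have hLt := Lp_ne_top hodd
  have hg2 := gcd_odd hodd
  have hP := card_psl (F := F)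
  rw [hg2] at hP
  have hnL : ¬ M ≤ Lp F := by
    intro h
    rcases hM.le_iff.1 h with h1 | h1
    · exact hLt h1
    · exact hML h1.le
  have h3 : 3 < Fintype.card F := by omega
  rcases precise_pgl (E := E) (p := p) M with ⟨ω, h⟩ | ⟨a, b, hab, hpair, h⟩ | ⟨h, hA⟩ | ⟨-, ⟨e⟩⟩ |
    ⟨C, F₀, h3', hU⟩
  · have hle : M ≤ Bp ω := by
      intro x hx
      have := h x hx
      rw [toE_smul_ιp] at this
      exact ιp_injective E this
    have hB : Bp ω ≠ ⊤ := by
      intro h1
      have h2 := card_Bp ω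
      rw [h1, Subgroup.card_top, hPGL] at h2
      exact num_ne_borel hq1 h2.symm
    rw [← (hM.le_iff_eq hB).1 hle]
    exact Bp_hmax hodd h5 ω
  · have hle : M ≤ Dp a b := fun x hx => h x hx
    have hcardD := card_Dp hpair
    have hT : Nat.card (Tp (F := F) a b) ≤ Fintype.card F + 1 := by
      rcases hpair with h2 | h2
      · rw [card_Tp_split h2]
        omega
      · rw [card_Tp_nonsplit h2]
    have hD : Dp (F := F) a b ≠ ⊤ := by
      intro h1
      rw [h1, Subgroup.card_top, hPGL] at hcardD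
      exact num_ne_dih h3 hT hcardD.symm
    have hMD := (hM.le_iff_eq hD).1 hle
    rw [← hMD]
    have hco : IsCoatom ((Dp (F := F) a b ⊓ Lp F).comap (tP (F := F))) := by
      rcases hpair with h2 | h2
      · refine coatom_split ?_ h2
        have h6 : Fintype.card F ≠ 5 := by
          intro h5'
          rw [card_Tp_split h2] at hcardD
          obtain ⟨s, -, -⟩ := exists_AB (F := F) p hp2
          rw [hMD, h5'] at hcardD
          rw [h5'] at hPGL
          refine no_coatom_sylow (ℓ := 2) (n := 3) Nat.prime_two (H := N₀ s) hM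
            (by rw [hcardD]; norm_num) ?_ ?_ ?_ ?_
          · rw [hPGL]
            norm_num
          · rw [card_N₀]
            norm_num
          · intro h6
            have h7 := card_N₀ s
            rw [h6, Subgroup.card_top, hPGL] at h7
            norm_num at h7
          · rw [card_N₀]
            norm_num
        simp only [Finset.mem_insert, Finset.mem_singleton, not_or]
        omega
      · refine coatom_nonsplit ?_ h2
        simp only [Finset.mem_insert, Finset.mem_singleton, not_or]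
        omega
    have h6 := (max_of_isCoatom hco).2
    rw [Subgroup.map_comap_eq_self (inf_le_right : Dp (F := F) a b ⊓ Lp F ≤ Lp F)] at h6
    exact h6
  · rcases hA with ⟨⟨e⟩⟩ | ⟨⟨e⟩⟩ | ⟨⟨e⟩⟩
    · exfalso
      obtain ⟨s, -, -⟩ := exists_AB (F := F) p hp2
      obtain ⟨C, hC⟩ := conj_of_A4 s e
      apply hnL
      rw [hC]
      exact (map_conj_le_Lp_iff _ _).2 (A₀_le_Lp s)
    · obtain ⟨s, ha, hb⟩ := exists_AB (F := F) p hp2
      obtain ⟨C, hC⟩ := conj_of_S4 s e
      have h2 : ¬ N₀ s ≤ Lp F := fun h5 => hnL (by rw [hC]; exact (map_conj_le_Lp_iff _ _).2 h5)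
      have hmod : Fintype.card F % 8 = 3 ∨ Fintype.card F % 8 = 5 := by
        by_contra hne
        exact h2 (N₀_le_Lp_of s (by omega))
      have hle : M ≤ ((φ₀ (Fp F p)).range).map (MulAut.conj C).toMonoidHom := by
        rw [hC]
        exact Subgroup.map_mono (N₀_le_φ₀ s (Fp F p) ha hb)
      have hqp : Fintype.card F = p := by
        by_contra hFp
        exfalso
        obtain ⟨m, hm, hc⟩ := exists_card_pow (Fp F p)
        rw [card_Fp] at hc
        have hm2 : 2 ≤ m := by
          by_contra hlt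
          have : m = 1 := by omega
          rw [this, pow_one] at hc
          exact hFp hc.symm
        have hne₁ : ((φ₀ (Fp F p)).range).map (MulAut.conj C).toMonoidHom ≠ ⊤ := by
          intro h5
          have h6 := card_φ₀_lt_Lp (Fp F p) hm2 (by rw [card_Fp]; exact hc)
          rw [← card_map_conj _ C, h5, Subgroup.card_top] at h6
          have := Subgroup.card_le_card_group (Lp F)
          omega
        have hM₁ := (hM.le_iff_eq hne₁).1 hle
        have hc24 : Nat.card M = 24 := by
          rw [Nat.card_congr e.toEquiv, card_S4]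
        rw [← hM₁, card_map_conj, card_φ₀, card_Fp] at hc24
        have hp3 : 3 ≤ p := by
          have := hpp.out.two_le
          omega
        have hp3' : p = 3 := num_three_of_le hp3 (by omega)
        have h3q : 3 ∣ Fintype.card F := by
          rw [← hc, hp3']
          exact dvd_pow_self _ (by omega)
        have h3M : 3 ∣ Nat.card M := by
          rw [Nat.card_congr e.toEquiv, card_S4]
          norm_num
        obtain ⟨h5, h6⟩ := not_dvd_pred_succ (by norm_num) h3q (by omega)
        exact no_elt_of_hnu (E := E) h Nat.prime_three h3M h5 h6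
      have h8 : M ⊓ Lp F = (A₀ s).map (MulAut.conj C).toMonoidHom := by
        have h9 : N₀ s ⊓ Lp F = A₀ s := by
          symm
          apply Subgroup.eq_of_le_of_card_ge (le_inf (A₀_le_N₀ s) (A₀_le_Lp s))
          have h10 := card_inf_Lp (N₀ s) (Or.inl h2)
          rw [hg2, card_N₀] at h10
          rw [card_A₀]
          omega
        rw [hC, ← map_conj_inf_Lp, h9]
      rw [h8]
      apply hmax_conj C
      have hpr : (Fintype.card F).Prime := by
        rw [hqp]
        exact hpp.out
      have h40' := h40 hpr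
      simp only [Finset.mem_insert, Finset.mem_singleton, not_or] at h40'
      exact A₀_hmax p hqp (by omega) (by omega) (by omega) s
    · exfalso
      exact hnL (A5_le_Lp e)
  · exfalso
    exact hnL (A5_le_Lp e)
  · rcases hU with hU | hU
    · obtain ⟨m, hm, hc⟩ := exists_card_pow F₀
      have hm1 : m ≠ 1 := by
        rintro rfl
        rw [pow_one] at hc
        have hF₀ := eq_top_of_card hc
        rw [hF₀, φ₀_top, map_conj_top] at hU
        exact hM.1 hU
      obtain ⟨F₁, r, hr, -, hle, hc₁⟩ := exists_prime_intermediate F₀ hm hc hm1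
      have hle₁ : M ≤ ((φ₀ F₁).range).map (MulAut.conj C).toMonoidHom := by
        rw [hU]
        exact Subgroup.map_mono (φ₀_mono hle)
      have hne₁ : ((φ₀ F₁).range).map (MulAut.conj C).toMonoidHom ≠ ⊤ := by
        intro h5
        have h6 := card_φ₀_lt_Lp F₁ hr.two_le hc₁
        rw [← card_map_conj _ C, h5, Subgroup.card_top] at h6
        have := Subgroup.card_le_card_group (Lp F)
        omega
      have hM₁ := (hM.le_iff_eq hne₁).1 hle₁
      have hnφ : ¬ (φ₀ F₁).range ≤ Lp F := by
        intro h6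
        apply hnL
        rw [← hM₁]
        exact (map_conj_le_Lp_iff _ _).2 h6
      have hr2 : r ≠ 2 := by
        rintro rfl
        apply hnφ
        rw [φ₀_le_Lp_iff]
        intro x hx
        exact isSquare_of_even hodd F₁ (by norm_num) hc₁ hx
      have hrodd : Odd r := hr.odd_of_ne_two hr2
      have hq₁ : 3 ≤ Nat.card F₁ := by
        have h6 : Nat.card F₀ ≤ Nat.card F₁ :=
          Nat.card_le_card_of_injective (Subfield.inclusion hle) (Subfield.inclusion hle).injective
        omega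
      have hodd₁ : Odd (Nat.card F₁) := by
        have h8 := hodd
        rw [← hc₁] at h8
        exact (Nat.odd_pow_iff hr.ne_zero).1 h8
      have hg : Nat.gcd 2 (Nat.card F₁ - 1) = 2 := by
        rcases gcd_two_cases (by omega : 1 < Nat.card F₁) with ⟨hg1, hg2⟩ | ⟨hg1, hg2⟩
        · rw [Nat.odd_iff] at hodd₁
          omega
        · exact hg2
      have hcard := card_φ₁ F₁
      rw [hg] at hcard
      have h8 : (φ₀ F₁).range ⊓ Lp F = (φ₁ F₁).range := by
        symm
        apply Subgroup.eq_of_le_of_card_ge (le_inf (φ₁_le_φ₀ F₁) (φ₁_le_Lp F₁))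
        have h10 := card_inf_Lp (φ₀ F₁).range (Or.inl hnφ)
        rw [hg2, card_φ₀, ← hcard] at h10
        omega
      have h10 : M ⊓ Lp F = ((φ₁ F₁).range).map (MulAut.conj C).toMonoidHom := by
        rw [← hM₁, ← map_conj_inf_Lp, h8]
      rw [h10]
      apply hmax_conj C
      refine subfield_maximal p F₁ hr hc₁ hq₁ (φ₁ F₁).range (Or.inl rfl) ?_ (fun _ _ hle => absurd hle hnφ)
      intro hp3 U hWU hUL hU
      have h1 := Subgroup.card_dvd_of_le hWU
      rw [hU] at h1
      subst hp3
      have h3q : 3 ∣ Fintype.card F := by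
        obtain ⟨n, -, hn⟩ := FiniteField.card F 3
        rw [hn]
        exact dvd_pow_self _ n.ne_zero
      rw [← hc₁] at h3q hP
      have h4 := num_A5_psl (Nat.Prime.dvd_of_dvd_pow Nat.prime_three h3q) (by omega) hcard h1
      have h5' := Subgroup.card_dvd_of_le hUL
      rw [hU, card_Lp] at h5'
      rw [h4] at hP
      apply num_five_pow hrodd
      rw [← hP]
      exact Dvd.dvd.mul_right (Dvd.dvd.trans (by norm_num) h5') _
    · exfalso
      apply hnL
      rw [hU]
      exact (map_conj_le_Lp_iff _ _).2 (φ₁_le_Lp F₀)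

/-- The statement. -/
theorem coatom_inf (h4 : 4 ≤ Fintype.card F) (h7 : Fintype.card F ≠ 7)
    (h9 : Fintype.card F ≠ 9) (h11 : Fintype.card F ≠ 11)
    (h40 : (Fintype.card F).Prime → Fintype.card F % 40 ∉ ({11, 19, 21, 29} : Finset ℕ))
    (M : Subgroup (PGL2 F)) (hM : IsCoatom M) (hML : ¬ Lp F ≤ M) :
    IsCoatom ((M ⊓ Lp F).subgroupOf (Lp F)) := by
  apply coatom_subgroupOf inf_le_right
  · intro h
    exact hML (inf_eq_right.1 h)
  · by_cases hodd : Odd (Fintype.card F)
    · apply inf_hmax hodd _ h7 h9 h11 h40 M hM hML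
      rw [Nat.odd_iff] at hodd
      omega
    · rw [Nat.not_odd_iff_even] at hodd
      have hq1 := one_lt_card (F := F)
      have hd : Nat.gcd 2 (Fintype.card F - 1) = 1 := by
        rcases gcd_two_cases hq1 with ⟨hg1, hg2⟩ | ⟨hg1, hg2⟩
        · exact hg2
        · rw [← Nat.not_odd_iff_even, Nat.odd_iff] at hodd
          omega
      have hL : Lp F = ⊤ := Lp_eq_top_of_gcd hd
      intro U h1 _
      rw [hL, inf_top_eq] at h1 ⊢
      rcases hM.le_iff.1 h1 with h3 | h3
      · right
        exact h3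
      · left
        exact h3

end Main

end Cfsg.Agent.Lib.Classical.SL2.MaxInf
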