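import Cfsg.Agent.Lib.Classical.SL2.MaxList
import Cfsg.Agent.Lib.Char.Burnside

/-!
When is `PSL₂(q)` minimal simple?
-/

set_option autoImplicit false
set_option linter.unusedSectionVars false
set_option linter.unusedSimpArgs false
set_option linter.style.haveILetI false

open scoped MatrixGroups commutatorElement
open Matrix OnePoint MulAction

namespace Cfsg.Agent.Lib.Classical.SL2.MinSimple

open Cfsg.Agent.Lib.Classical.SL2.Moebius Cfsg.Agent.Lib.Classical.SL2.Rational
open Cfsg.Agent.Lib.Classical.SL2.Klein Cfsg.Agent.Lib.Classical.SL2.SubfieldCase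
open Cfsg.Agent.Lib.Classical.SL2.Dickson Cfsg.Agent.Lib.Classical.SL2.Precise
open Cfsg.Agent.Lib.Classical.SL2.Tori Cfsg.Agent.Lib.Classical.SL2.SubLat
open Cfsg.Agent.Lib.Classical.SL2.Coatom Cfsg.Agent.Lib.Classical.SL2.SubMax
open Cfsg.Agent.Lib.Classical.SL2.EvenList Cfsg.Agent.Lib.Classical.SL2.Quat
open Cfsg.Agent.Lib.Classical.SL2.V4Abs Cfsg.Agent.Lib.Classical.SL2.QuatStd
open Cfsg.Agent.Lib.Classical.SL2.Klein4 Cfsg.Agent.Lib.Classical.SL2.A4S4
open Cfsg.Agent.Lib.Classical.SL2.A5Sub Cfsg.Agent.Lib.Classical.SL2.MaxList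
open Cfsg.Agent.Lib.Classical

local notation "PGL2" => ProjGenLinGroup (Fin 2)
local notation "PSL2" => ProjectiveSpecialLinearGroup (Fin 2)

section Solv

/-- A group whose commutators lie in a commuting set is solvable. -/
lemma isSolvable_of_comm_set {G : Type*} [Group G] (S : Set G) (hc : ∀ a ∈ S, ∀ b ∈ S, a * b = b * a)
    (h : ∀ x y : G, ⁅x, y⁆ ∈ S) : Group.IsSolvable G := by
  rw [Group.isSolvable_def]
  refine ⟨2, ?_⟩
  haveI : IsMulCommutative (Subgroup.closure S) := Subgroup.isMulCommutative_closure hc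
  have hP : ∀ a ∈ Subgroup.closure S, ∀ b ∈ Subgroup.closure S, a * b = b * a := by
    intro a ha b hb
    have := mul_comm' (⟨a, ha⟩ : Subgroup.closure S) ⟨b, hb⟩
    exact congrArg Subtype.val this
  have h1 : derivedSeries G 1 ≤ Subgroup.closure S := by
    rw [derivedSeries_succ, derivedSeries_zero, Subgroup.commutator_le]
    intro x _ y _
    exact Subgroup.subset_closure (h x y)
  rw [eq_bot_iff, show (2 : ℕ) = 1 + 1 from rfl, derivedSeries_succ, Subgroup.commutator_le]
  intro x hx y hy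
  rw [Subgroup.mem_bot, commutatorElement_eq_one_iff_mul_comm]
  exact hP x (h1 hx) y (h1 hy)

/-- Dihedral groups are solvable. -/
lemma isSolvable_dihedral (n : ℕ) : Group.IsSolvable (DihedralGroup n) := by
  refine isSolvable_of_comm_set {x | ∃ k, x = DihedralGroup.r k} ?_ ?_
  · rintro _ ⟨i, rfl⟩ _ ⟨j, rfl⟩
    simp [DihedralGroup.r_mul_r, add_comm]
  · intro x y
    cases x <;> cases y <;>
      simp only [commutatorElement_def, DihedralGroup.inv_r, DihedralGroup.inv_sr, DihedralGroup.r_mul_r,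
        DihedralGroup.r_mul_sr, DihedralGroup.sr_mul_r, DihedralGroup.sr_mul_sr] <;>
      exact ⟨_, rfl⟩

lemma solv_of_le {G : Type*} [Group G] {U W : Subgroup G} (h : U ≤ W) (hW : Group.IsSolvable W) : Group.IsSolvable U :=
  Group.isSolvable_of_isSolvable_injective (Subgroup.inclusion_injective h)

lemma solv_of_equiv {G G' : Type*} [Group G] [Group G'] (e : G ≃* G') (hW : Group.IsSolvable G') : Group.IsSolvable G :=
  Group.isSolvable_of_isSolvable_injective (f := e.toMonoidHom) e.injective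

end Solv

section Borel

variable {F : Type*} [Field F] [DecidableEq F]

lemma isSolvable_Bp_infty [Fintype F] : Group.IsSolvable (Bp (F := F) (∞ : OnePoint F)) := by
  refine isSolvable_of_comm_set {x | ∃ c : F, (x : PGL2 F) = ProjGenLinGroup.mk (uG c)} ?_ ?_
  · rintro x ⟨a, ha⟩ y ⟨b, hb⟩
    apply Subtype.ext
    show (x : PGL2 F) * y = y * x
    rw [ha, hb, ← map_mul, ← map_mul]
    congr 1
    apply gl_ext <;> simp [gl_mul_apply, add_comm]
  · rintro ⟨x, hx⟩ ⟨y, hy⟩
    induction x using ProjGenLinGroup.induction_on with | mk g =>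
    induction y using ProjGenLinGroup.induction_on with | mk h =>
    have hg : g 1 0 = 0 := fix_infty_iff.1 hx
    have hh : h 1 0 = 0 := fix_infty_iff.1 hy
    have hg' := diag_ne_zero hg
    have hh' := diag_ne_zero hh
    set K : GL (Fin 2) F := g * h * g⁻¹ * h⁻¹ with hK
    have hK1 : K * (h * g) = g * h := by
      rw [hK]
      group
    have hK0 : K 1 0 = 0 := by
      rw [← fix_infty_iff, hK, mul_smul, mul_smul, mul_smul]
      have h1 : h⁻¹ • (∞ : OnePoint F) = ∞ := inv_smul_eq_iff.2 (fix_infty_iff.2 hh).symm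
      have h2 : g⁻¹ • (∞ : OnePoint F) = ∞ := inv_smul_eq_iff.2 (fix_infty_iff.2 hg).symm
      rw [h1, h2, fix_infty_iff.2 hh, fix_infty_iff.2 hg]
    have e00 := congrArg (fun M : GL (Fin 2) F => M 0 0) hK1
    have e11 := congrArg (fun M : GL (Fin 2) F => M 1 1) hK1
    simp only [gl_mul_apply] at e00 e11
    simp only [hg, hh, hK0, mul_zero, zero_mul, add_zero, zero_add] at e00 e11
    have hK00 : K 0 0 = 1 := by
      apply mul_right_cancel₀ (mul_ne_zero hh'.1 hg'.1)
      linear_combination e00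
    have hK11 : K 1 1 = 1 := by
      apply mul_right_cancel₀ (mul_ne_zero hh'.2 hg'.2)
      linear_combination e11
    refine ⟨K 0 1 / K 0 0, ?_⟩
    show ProjGenLinGroup.mk g * ProjGenLinGroup.mk h * (ProjGenLinGroup.mk g)⁻¹ *
      (ProjGenLinGroup.mk h)⁻¹ = _
    rw [← mk_eq_uG hK0 (by rw [hK00, hK11]), hK, map_mul, map_mul, map_mul, map_inv, map_inv]

lemma isSolvable_Bp [Fintype F] (ω : OnePoint F) : Group.IsSolvable (Bp ω) := by
  haveI := pretransitive_pgl (F := F)
  obtain ⟨C, rfl⟩ := MulAction.exists_smul_eq (PGL2 F) (∞ : OnePoint F) ω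
  rw [← map_conj_Bp]
  exact solv_of_equiv (Subgroup.equivMapOfInjective _ _ (MulAut.conj C).injective).symm (isSolvable_Bp_infty (F := F))

end Borel

section Main

lemma not_solv_of_simple {G : Type*} [Group G] [Finite G] [IsSimpleGroup G]
    (h : ¬ (Nat.card G).Prime) : ¬ Group.IsSolvable G := by
  intro hs
  have hc := (IsSimpleGroup.comm_iff_isSolvable (G := G)).2 hs
  letI : CommGroup G := { (inferInstance : Group G) with mul_comm := hc }
  exact h (IsSimpleGroup.prime_card)

variable {F : Type*} [Field F] [Fintype F]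

lemma card_psl_not_prime (h4 : 4 ≤ Fintype.card F) : ¬ (Nat.card (PSL2 F)).Prime := by
  intro hP
  have hc := card_psl (F := F)
  have hq1 := one_lt_card (F := F)
  rcases gcd_two_cases hq1 with ⟨hg1, hg2⟩ | ⟨hg1, hg2⟩
  · rw [hg2, mul_one] at hc
    rw [hc] at hP
    refine Nat.not_prime_mul (by omega) ?_ hP
    intro h1
    have h2 : 3 ≤ Fintype.card F - 1 := by omega
    have h3 : 3 * 5 ≤ (Fintype.card F - 1) * (Fintype.card F + 1) :=
      Nat.mul_le_mul h2 (by omega)
    omega
  · rw [hg2] at hc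
    obtain ⟨k, hk⟩ : ∃ k, Fintype.card F = 2 * k + 1 := ⟨Fintype.card F / 2, by omega⟩
    have hk2 : 2 ≤ k := by omega
    have h1 : Nat.card (PSL2 F) = Fintype.card F * (k * (Fintype.card F + 1)) := by
      have h3 : Fintype.card F - 1 = 2 * k := by omega
      rw [h3] at hc
      have h5 : Nat.card (PSL2 F) * 2 = Fintype.card F * (k * (Fintype.card F + 1)) * 2 := by
        rw [hc]
        ring
      exact Nat.eq_of_mul_eq_mul_right (by norm_num) h5
    rw [h1] at hP
    refine Nat.not_prime_mul (by omega) ?_ hP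
    intro h3
    have h5 : 2 * 2 ≤ k * (Fintype.card F + 1) := Nat.mul_le_mul hk2 (by omega)
    omega

lemma not_solvable_psl (h4 : 4 ≤ Fintype.card F) : ¬ Group.IsSolvable (PSL2 F) := by
  haveI : IsSimpleGroup (PSL2 F) := Matrix.ProjectiveSpecialLinearGroup.rank_two_simple (by
    rw [Nat.card_eq_fintype_card]; exact h4)
  exact not_solv_of_simple (card_psl_not_prime h4)

lemma not_solvable_A5 : ¬ Group.IsSolvable (alternatingGroup (Fin 5)) := by
  haveI : IsSimpleGroup (alternatingGroup (Fin 5)) := alternatingGroup.isSimpleGroup (by simp)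
  apply not_solv_of_simple
  rw [card_A5]
  norm_num

lemma psl_not_comm (h4 : 4 ≤ Fintype.card F) : ¬ ∀ a b : PSL2 F, a * b = b * a := by
  haveI : IsSimpleGroup (PSL2 F) := Matrix.ProjectiveSpecialLinearGroup.rank_two_simple (by
    rw [Nat.card_eq_fintype_card]; exact h4)
  rw [IsSimpleGroup.comm_iff_isSolvable]
  exact not_solvable_psl h4

variable [DecidableEq F]

/-- No proper subfield subgroups other than the very small ones. -/
lemma no_subfield (hsolv : ∀ H : Subgroup (PSL2 F), H ≠ ⊤ → Group.IsSolvable H) (F₀ : Subfield F)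
    (h4 : 4 ≤ Nat.card F₀) {m : ℕ} (hm : Nat.card F₀ ^ m = Fintype.card F) (hm2 : 2 ≤ m) : False := by
  classical
  haveI : Fintype F₀ := Fintype.ofFinite _
  have hL := φ₁_le_Lp F₀
  have hne : ((φ₁ F₀).range).comap (tP (F := F)) ≠ ⊤ := by
    apply comap_ne_top hL
    have := card_φ₁_lt_Lp F₀ hm2 hm
    rw [card_Lp] at this
    omega
  have h1 := hsolv _ hne
  have e := (comapEquiv' hL).trans (rangeEquiv₁ F₀)
  apply not_solvable_psl (F := F₀) (by rwa [← Nat.card_eq_fintype_card])
  exact Group.isSolvable_of_surjective (f := e.toMonoidHom) e.surjective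

lemma no_A5 (hsolv : ∀ H : Subgroup (PSL2 F), H ≠ ⊤ → Group.IsSolvable H) {H : Subgroup (PSL2 F)}
    (e : H ≃* alternatingGroup (Fin 5)) (hne : H ≠ ⊤) : False := by
  have h1 := hsolv H hne
  apply not_solvable_A5
  exact Group.isSolvable_of_surjective (f := e.toMonoidHom) e.surjective

lemma ne_top_of_A5 {H : Subgroup (PSL2 F)} (e : H ≃* alternatingGroup (Fin 5))
    (hc : Nat.card (PSL2 F) ≠ 60) : H ≠ ⊤ := by
  rintro rfl
  apply hc
  rw [← Subgroup.card_top, Nat.card_congr e.toEquiv, card_A5]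

/-- The numerics of `q` from minimal simplicity. -/
theorem list_of_min (hc : ¬ ∀ a b : PSL2 F, a * b = b * a) [IsSimpleGroup (PSL2 F)]
    (hsolv : ∀ H : Subgroup (PSL2 F), H ≠ ⊤ → Group.IsSolvable H) :
    (∃ r : ℕ, r.Prime ∧ Fintype.card F = 2 ^ r) ∨ (∃ r : ℕ, r.Prime ∧ r ≠ 2 ∧ Fintype.card F = 3 ^ r) ∨
      ((Fintype.card F).Prime ∧ 5 < Fintype.card F ∧ (Fintype.card F % 5 = 2 ∨ Fintype.card F % 5 = 3)) ∨
      Fintype.card F = 5 := by
  classical
  have hq1 := one_lt_card (F := F)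
  have hP := card_psl (F := F)
  have h4 : 4 ≤ Fintype.card F := by
    by_contra hlt
    have h23 : Fintype.card F = 2 ∨ Fintype.card F = 3 := by omega
    apply hc
    rw [IsSimpleGroup.comm_iff_isSolvable]
    rcases h23 with h | h
    · rw [h] at hP
      have h1 : Nat.gcd 2 (2 - 1) = 1 := by norm_num
      have h2 : 2 * ((2 - 1) * (2 + 1)) = 6 := by norm_num
      rw [h1, h2] at hP
      exact Cfsg.Agent.Lib.Char.Burnside.isSolvable_of_card_eq 2 3 1 1 Nat.prime_two Nat.prime_three
        (by omega)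
    · rw [h] at hP
      have h1 : Nat.gcd 2 (3 - 1) = 2 := by norm_num
      have h2 : 3 * ((3 - 1) * (3 + 1)) = 24 := by norm_num
      rw [h1, h2] at hP
      exact Cfsg.Agent.Lib.Char.Burnside.isSolvable_of_card_eq 2 3 2 1 Nat.prime_two Nat.prime_three
        (by omega)
  obtain ⟨p, hp⟩ := CharP.exists F
  haveI hpp : Fact p.Prime := ⟨CharP.char_is_prime F p⟩
  obtain ⟨n', -, hn'⟩ := FiniteField.card F p
  obtain ⟨n, hnpos, hn⟩ : ∃ n : ℕ, 1 ≤ n ∧ Fintype.card F = p ^ n := ⟨n', n'.pos, hn'⟩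
  have hsub : ∀ a b : ℕ, n = a * b → 2 ≤ b → 4 ≤ p ^ a → False := by
    intro a b hab hb h4a
    obtain ⟨F₁, -, hF₁⟩ := exists_intermediate (Fp F p) (m := n) (s := a) hnpos
      (by rw [card_Fp, hn]) (Dvd.intro b hab.symm)
    rw [card_Fp] at hF₁
    refine no_subfield hsolv F₁ (by rw [hF₁]; exact h4a) (m := b) ?_ hb
    rw [hF₁, ← pow_mul, ← hab, hn]
  have hprime : 4 ≤ p ^ 2 → 2 ≤ n → n.Prime := by
    intro _ hn2
    by_contra hnp
    obtain ⟨m, hm, hm2, hmn⟩ := Nat.exists_dvd_of_not_prime2 hn2 hnp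
    obtain ⟨b, hb⟩ := hm
    have hb2 : 2 ≤ b := by
      by_contra hlt
      have : b = 0 ∨ b = 1 := by omega
      rcases this with rfl | rfl
      · omega
      · omega
    refine hsub m b hb hb2 ?_
    calc 4 = 2 ^ 2 := by norm_num
      _ ≤ p ^ 2 := Nat.pow_le_pow_left hpp.out.two_le 2
      _ ≤ p ^ m := Nat.pow_le_pow_right hpp.out.pos hm2
  have h4p : 4 ≤ p ^ 2 := by
    calc 4 = 2 ^ 2 := by norm_num
      _ ≤ p ^ 2 := Nat.pow_le_pow_left hpp.out.two_le 2
  by_cases hp2 : p = 2
  · subst hp2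
    left
    have hn2 : 2 ≤ n := by
      by_contra hlt
      have : n = 1 := by omega
      rw [this] at hn
      omega
    exact ⟨n, hprime h4p hn2, hn⟩
  by_cases hp3 : p = 3
  · subst hp3
    right; left
    have hn2 : 2 ≤ n := by
      by_contra hlt
      have : n = 1 := by omega
      rw [this] at hn
      omega
    refine ⟨n, hprime h4p hn2, ?_, hn⟩
    rintro rfl
    obtain ⟨H, ⟨e⟩⟩ := exists_A5_iff.2 (by rw [hn]; norm_num : 5 ∣ Fintype.card F * (Fintype.card F ^ 2 - 1))
    refine no_A5 hsolv e (ne_top_of_A5 e ?_)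
    rw [hn] at hP
    have h1 : Nat.gcd 2 (3 ^ 2 - 1) = 2 := by norm_num
    have h2 : 3 ^ 2 * ((3 ^ 2 - 1) * (3 ^ 2 + 1)) = 720 := by norm_num
    rw [h1, h2] at hP
    omega
  have hp5 : 5 ≤ p := by
    by_contra hlt
    have h1 := hpp.out.two_le
    have : p = 4 := by omega
    subst this
    exact absurd hpp.out (by norm_num)
  have hn1 : n = 1 := by
    by_contra hne
    exact hsub 1 n (by ring) (by omega) (by rw [pow_one]; omega)
  rw [hn1, pow_one] at hn
  right; right
  by_cases hp55 : p = 5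
  · right
    rw [hn, hp55]
  left
  have hp6 : 5 < p := by omega
  refine ⟨by rw [hn]; exact hpp.out, by rw [hn]; exact hp6, ?_⟩
  rw [hn]
  by_contra hcon
  have hm5 : p % 5 ≠ 0 := by
    intro h
    have : 5 ∣ p := Nat.dvd_of_mod_eq_zero h
    exact hp55 ((Nat.prime_dvd_prime_iff_eq (by norm_num) hpp.out).1 this).symm
  have hm : p % 5 = 1 ∨ p % 5 = 4 := by omega
  have h5 : 5 ∣ Fintype.card F * (Fintype.card F ^ 2 - 1) := by
    rw [hn]
    apply Dvd.dvd.mul_left
    have h1 : 1 ≤ p ^ 2 := Nat.one_le_iff_ne_zero.2 (pow_ne_zero 2 hpp.out.ne_zero)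
    have h2 : p ^ 2 % 5 = 1 := by
      rw [Nat.pow_mod]
      rcases hm with h3 | h3 <;> rw [h3] <;> norm_num
    omega
  obtain ⟨H, ⟨e⟩⟩ := exists_A5_iff.2 h5
  refine no_A5 hsolv e (ne_top_of_A5 e ?_)
  have h7 : 7 ≤ Fintype.card F := by
    rw [hn]
    have : p ≠ 6 := by
      rintro rfl
      exact absurd hpp.out (by norm_num)
    omega
  have h8 := num_mono_le (a := 7) (b := Fintype.card F) (by norm_num) h7
  norm_num at h8
  rcases gcd_eq_one_or_two (F := F) with hg | hg <;> rw [hg] at hP <;> omega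

/-- Solvability of the proper subgroups. -/
theorem solvable_of_list
    (hlist : (∃ r : ℕ, r.Prime ∧ Fintype.card F = 2 ^ r) ∨ (∃ r : ℕ, r.Prime ∧ r ≠ 2 ∧ Fintype.card F = 3 ^ r) ∨
      ((Fintype.card F).Prime ∧ 5 < Fintype.card F ∧ (Fintype.card F % 5 = 2 ∨ Fintype.card F % 5 = 3)) ∨
      Fintype.card F = 5) (H : Subgroup (PSL2 F)) (hH : H ≠ ⊤) : Group.IsSolvable H := by
  classical
  obtain ⟨p, hp⟩ := CharP.exists F
  haveI hpp : Fact p.Prime := ⟨CharP.char_is_prime F p⟩
  let E := AlgebraicClosure F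
  haveI : CharP E p := charP_of_injective_algebraMap (algebraMap F E).injective p
  have hiso := mapEquiv H
  set U := H.map (tP (F := F)) with hU
  have hUL : U ≤ Lp F := by
    rintro _ ⟨x, -, rfl⟩
    exact ⟨x, rfl⟩
  have hneL : U ≠ Lp F := by
    intro h
    apply hH
    apply Subgroup.eq_top_of_card_eq
    rw [Nat.card_congr hiso.toEquiv, h, card_Lp]
  suffices h : Group.IsSolvable U from solv_of_equiv hiso h
  have hq1 := one_lt_card (F := F)
  have hP := card_psl (F := F)
  -- the case of `A₅`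
  have hA5 : (U ≃* alternatingGroup (Fin 5)) → False := by
    intro e
    have h60 : Nat.card U = 60 := by
      rw [Nat.card_congr e.toEquiv, card_A5]
    have hdv := Subgroup.card_dvd_of_le hUL
    rw [h60, card_Lp] at hdv
    have h5 : 5 ∣ Fintype.card F * ((Fintype.card F - 1) * (Fintype.card F + 1)) := by
      rw [← hP]
      exact Dvd.dvd.mul_right (Dvd.dvd.trans (by norm_num) hdv) _
    have hfull : Nat.card (PSL2 F) = 60 → False := by
      intro h6
      apply hneL
      apply Subgroup.eq_of_le_of_card_ge hUL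
      rw [h60, card_Lp, h6]
    have h5p : Nat.Prime 5 := by norm_num
    rcases hlist with ⟨r, hr, hq⟩ | ⟨r, hr, hr2, hq⟩ | ⟨hq, hq5, hm⟩ | hq
    · have h52 : 5 ∣ 2 ^ r * ((2 ^ r) ^ 2 - 1) := by
        rw [← hq]
        have h7 : (Fintype.card F - 1) * (Fintype.card F + 1) = Fintype.card F ^ 2 - 1 := by
          obtain ⟨k, hk⟩ : ∃ k, Fintype.card F = k + 1 := ⟨Fintype.card F - 1, by omega⟩
          rw [hk]
          simp only [Nat.add_sub_cancel]
          have : (k + 1) ^ 2 = k * (k + 1 + 1) + 1 := by ring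
          rw [this]
          simp
        rwa [h7] at h5
      have hev := num_even_of_five h52
      have hr2 : r = 2 := (hr.even_iff.1 hev)
      subst hr2
      apply hfull
      rw [hq] at hP
      have h1 : Nat.gcd 2 (2 ^ 2 - 1) = 1 := by norm_num
      have h2 : 2 ^ 2 * ((2 ^ 2 - 1) * (2 ^ 2 + 1)) = 60 := by norm_num
      rw [h1, h2] at hP
      omega
    · rw [hq] at h5
      exact num_five_pow (hr.odd_of_ne_two hr2) h5
    · rcases h5p.dvd_mul.1 h5 with h6 | h6
      · have := Nat.mod_eq_zero_of_dvd h6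
        omega
      · rcases h5p.dvd_mul.1 h6 with h7 | h7 <;> omega
    · apply hfull
      rw [hq] at hP
      have h1 : Nat.gcd 2 (5 - 1) = 2 := by norm_num
      have h2 : 5 * ((5 - 1) * (5 + 1)) = 120 := by norm_num
      rw [h1, h2] at hP
      omega
  rcases precise_pgl (E := E) (p := p) U with ⟨ω, h⟩ | ⟨a, b, hab, hpair, h⟩ | ⟨h, hA⟩ | ⟨hp3, ⟨e⟩⟩ |
    ⟨C, F₀, h3', hUU⟩
  · have hle : U ≤ Bp ω := by
      intro x hx
      have := h x hx
      rw [toE_smul_ιp] at this
      exact ιp_injective E this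
    exact solv_of_le hle (isSolvable_Bp ω)
  · have hle : U ≤ Dp a b := fun x hx => h x hx
    obtain ⟨e⟩ := iso_Dp hpair
    exact solv_of_le hle (solv_of_equiv e (isSolvable_dihedral _))
  · rcases hA with ⟨⟨e⟩⟩ | ⟨⟨e⟩⟩ | ⟨⟨e⟩⟩
    · exact Cfsg.Agent.Lib.Char.Burnside.isSolvable_of_card_eq 2 3 2 1 Nat.prime_two Nat.prime_three
        (by rw [Nat.card_congr e.toEquiv, card_A4]; norm_num)
    · exact Cfsg.Agent.Lib.Char.Burnside.isSolvable_of_card_eq 2 3 3 1 Nat.prime_two Nat.prime_three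
        (by rw [Nat.card_congr e.toEquiv, card_S4]; norm_num)
    · exact (hA5 e).elim
  · exact (hA5 e).elim
  · obtain ⟨m, hm, hc⟩ := exists_card_pow F₀
    by_cases hm1 : m = 1
    · exfalso
      rw [hm1, pow_one] at hc
      exact hneL (eq_Lp_of_top hUL (eq_top_of_card hc) hUU)
    have hm2 : 2 ≤ m := by omega
    -- the subfield has three elements
    have key : ∀ (ℓ r : ℕ), ℓ.Prime → r.Prime → Fintype.card F = ℓ ^ r → Nat.card F₀ = ℓ := by
      intro ℓ r hℓ hr hq
      have hd : Nat.card F₀ ∣ ℓ ^ r := by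
        rw [← hq, ← hc]
        exact dvd_pow_self _ (by omega)
      obtain ⟨k, -, hk⟩ := (Nat.dvd_prime_pow hℓ).1 hd
      have h1 : ℓ ^ (k * m) = ℓ ^ r := by
        rw [pow_mul, ← hk, hc, hq]
      have h2 := Nat.pow_right_injective hℓ.two_le h1
      have h3 : m ∣ r := Dvd.intro_left k h2
      have h4 : m = r := ((Nat.dvd_prime hr).1 h3).resolve_left hm1
      have h5 : k = 1 := by
        rw [h4] at h2
        exact Nat.eq_of_mul_eq_mul_right hr.pos (by rw [h2, one_mul])
      rw [hk, h5, pow_one]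
    have hq₀3 : Nat.card F₀ = 3 := by
      rcases hlist with ⟨r, hr, hq⟩ | ⟨r, hr, -, hq⟩ | ⟨hq, -, -⟩ | hq
      · have := key 2 r Nat.prime_two hr hq
        omega
      · exact key 3 r Nat.prime_three hr hq
      · exfalso
        rw [← hc] at hq
        exact Nat.Prime.not_prime_pow hm2 hq
      · exfalso
        have h5 : (Fintype.card F).Prime := by
          rw [hq]
          norm_num
        rw [← hc] at h5
        exact Nat.Prime.not_prime_pow hm2 h5
    have hle : U ≤ ((φ₀ F₀).range).map (MulAut.conj C).toMonoidHom := by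
      rcases hUU with h | h
      · rw [h]
      · rw [h]
        exact Subgroup.map_mono (φ₁_le_φ₀ F₀)
    refine solv_of_le hle ?_
    exact Cfsg.Agent.Lib.Char.Burnside.isSolvable_of_card_eq 2 3 3 1 Nat.prime_two Nat.prime_three
      (by rw [card_map_conj, card_φ₀, hq₀3]; norm_num)

end Main

end Cfsg.Agent.Lib.Classical.SL2.MinSimple
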